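import Groth.Agent.Vancyc.H155.PsiModel

/-!
# Package FD + PsiEt of S4015 in one statement
-/

set_option autoImplicit false

universe u

namespace Groth.Agent.Vancyc.H155.PsiFD

open CategoryTheory CategoryTheory.Limits AlgebraicGeometry Psi PsiRoof PsiModel FD Groth.Agent.Etrest.StrictLoc

/-- The point `0` of the affine line. -/
noncomputable abbrev zero (k : Type u) [Field k] : Spec (CommRingCat.of k) ⟶ Spec (CommRingCat.of (Polynomial k)) :=
  Spec.map (CommRingCat.ofHom (Polynomial.evalRingHom (0 : k)))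

/-- **FD + PsiEt**: in the situation of S4015 there are a strict localization `β : Spec R ⟶ 𝔸^1` at `0`, a polynomial
`φ` and `M ≥ 1` such that for every polynomial `g = φ` modulo `(X)^M`: `g(0) = 0`, the Milnor number at `x₀` is the
dimension of the local Jacobian algebra of `g` at the origin, and the stalks of nearby cycles at a geometric point over
`x₀` are those of `g : 𝔸^n ⟶ 𝔸^1` (pulled back along `β`) at a geometric point over the origin and the closed point. -/
theorem exists_model {k : Type u} [Field k] [IsAlgClosed k] {S X : Scheme.{u}} (pS : S ⟶ Spec (CommRingCat.of k))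
    (pX : X ⟶ Spec (CommRingCat.of k)) [SmoothOfRelativeDimension 1 pS] (n : ℕ)
    [SmoothOfRelativeDimension n pX] (f : X ⟶ S) (hf : f ≫ pS = pX) (x₀ : X) (hx₀ : IsClosed ({x₀} : Set X))
    (U : X.Opens) (hU : Smooth (U.ι ≫ f)) (hiso : ∃ V : X.Opens, x₀ ∈ V ∧ (V : Set X) ⊆ insert x₀ (U : Set X))
    (R : Type u) [CommRing R] [IsLocalRing R] [Algebra (↑(S.presheaf.stalk (f x₀))) R]
    [IsLocalHom (algebraMap (↑(S.presheaf.stalk (f x₀))) R)]
    [Hensel.IsStrictHenselization (↑(S.presheaf.stalk (f x₀))) R]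
    (b : Spec (CommRingCat.of R) ⟶ S)
    (hb : b = Spec.map (CommRingCat.ofHom (algebraMap (↑(S.presheaf.stalk (f x₀))) R)) ≫ S.fromSpecStalk (f x₀)) :
    ∃ β : Spec (CommRingCat.of R) ⟶ Spec (CommRingCat.of (Polynomial k)), IsStrictLoc β ∧
      β (IsLocalRing.closedPoint R) = zero k default ∧
      β ≫ Spec.map (CommRingCat.ofHom Polynomial.C) = b ≫ pS ∧
      ∃ (M : ℕ) (φ : MvPolynomial (Fin n) k), 1 ≤ M ∧ ∀ g : MvPolynomial (Fin n) k,
        g - φ ∈ (Ideal.span (Set.range (MvPolynomial.X : Fin n → MvPolynomial (Fin n) k))) ^ M →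
        MvPolynomial.eval (0 : Fin n → k) g = 0 ∧
        (haveI : (RingHom.ker (MvPolynomial.eval (0 : Fin n → k) : MvPolynomial (Fin n) k →+* k)).IsPrime :=
          RingHom.ker_isPrime _
        VanCyc.milnor pX f x₀ = Module.finrank k
          (Localization.AtPrime (RingHom.ker (MvPolynomial.eval (0 : Fin n → k) : MvPolynomial (Fin n) k →+* k)) ⧸
            (Ideal.span (Set.range fun i => MvPolynomial.pderiv i g)).map (algebraMap (MvPolynomial (Fin n) k)
              (Localization.AtPrime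
                (RingHom.ker (MvPolynomial.eval (0 : Fin n → k) : MvPolynomial (Fin n) k →+* k)))))) ∧
        ∀ (Ω : Type u) [Field Ω] [Algebra R Ω] {Ω' : Type u} [Field Ω'] [IsSepClosed Ω']
          (ξ : Spec (CommRingCat.of Ω') ⟶ VanCyc.spFib R (pullback.snd f b))
          (_ : (ξ ≫ VanCyc.icl R (pullback.snd f b) ≫ pullback.fst f b).base (IsLocalRing.closedPoint Ω') = x₀),
          ∃ x₂ : Spec (CommRingCat.of Ω') ⟶ pullback (polyMap g) β,
            (x₂ ≫ pullback.snd (polyMap g) β) default = IsLocalRing.closedPoint R ∧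
            (∃ c : Spec (CommRingCat.of Ω') ⟶ Spec (CommRingCat.of k),
              x₂ ≫ pullback.fst (polyMap g) β = c ≫ origin k n) ∧
            ∀ (M : Type) [AddCommGroup M] (i : ℕ),
              Nonempty ((EtCoh.stalk ξ).obj (VanCyc.psi R Ω (pullback.snd f b) i
                ((EtCoh.pull (VanCyc.jA R (pullback.snd f b) Ω)).obj (EtCoh.const _ M))) ≅
                St (VanCyc.jA R (pullback.snd (polyMap g) β) Ω) M i x₂) := by
  obtain ⟨S₀, j, τ, e₀, _, hj, hτ, hjp, hτ0, hs, M, φ, hM, H⟩ := FD.exists_model pS pX n f hf x₀ hx₀ U hU hiso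
  obtain ⟨ρ, hρ⟩ := exists_lift_open j (f x₀) ⟨e₀ (IsLocalRing.closedPoint k), by
    rw [← Scheme.Hom.comp_apply]; exact hs⟩ R
  rw [← hb] at hρ
  have hbl : IsStrictLoc b := by
    rw [hb]
    exact isStrictLoc_specOf S (f x₀) R
  have hρl : IsStrictLoc ρ := Etbc.H199.GenPt.isStrictLoc_of_comp_mono j (by rw [hρ]; exact hbl)
  have hbc : b (IsLocalRing.closedPoint R) = f x₀ := by
    rw [hb, Scheme.Hom.comp_apply]
    have h1 : Spec.map (CommRingCat.ofHom (algebraMap (↑(S.presheaf.stalk (f x₀))) R))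
        (IsLocalRing.closedPoint R) = IsLocalRing.closedPoint _ := by
      exact IsLocalRing.comap_closedPoint (algebraMap (↑(S.presheaf.stalk (f x₀))) R)
    rw [h1, Scheme.fromSpecStalk_closedPoint]
  have hρc : ρ (IsLocalRing.closedPoint R) = e₀ default := by
    apply j.isOpenEmbedding.injective
    rw [← Scheme.Hom.comp_apply, hρ, hbc, ← hs, ← Scheme.Hom.comp_apply]
    exact congrArg _ (Subsingleton.elim _ _)
  refine ⟨ρ ≫ τ, Sga4h.SLocTrans88.isStrictLoc_comp_of_weaklyEtale τ inferInstance hρl, ?_, ?_, M, φ, hM,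
    fun g hg => ?_⟩
  · rw [Scheme.Hom.comp_apply, hρc, ← Scheme.Hom.comp_apply, hτ0]
  · rw [Category.assoc, ← hjp, ← Category.assoc, hρ]
  obtain ⟨⟨W, p, q, r, e, _, hp, hq, hpf, hqG, her, heq, hep, hpX⟩, hg0, hmu⟩ := H g hg
  refine ⟨hg0, hmu, fun Ω _ _ Ω' _ _ ξ hξ => ?_⟩
  obtain ⟨x₂, h1, h2, h3⟩ := exists_point pX f j τ g p q r e hpf hqG heq hpX R ρ b hρ Ω
    (ξ ≫ VanCyc.icl R (pullback.snd f b)) (by
      rw [Category.assoc]
      refine Eq.trans ?_ (hξ.trans (hep.symm.trans ?_))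
      · exact congrArg _ (Subsingleton.elim _ _)
      · exact congrArg _ (Subsingleton.elim _ _))
  refine ⟨x₂, ?_, ⟨_, h2⟩, fun M _ i => ?_⟩
  · rw [h1, Category.assoc, pullback.condition, ← Category.assoc, Scheme.Hom.comp_apply]
    refine (congrArg _ (Subsingleton.elim _ (IsLocalRing.closedPoint (IsLocalRing.ResidueField R)))).trans ?_
    exact IsLocalRing.comap_closedPoint (IsLocalRing.residue R)
  · obtain ⟨a⟩ := nonempty_psi_iso R Ω (pullback.snd f b) M i ξ
    obtain ⟨a'⟩ := h3 M i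
    exact ⟨a ≪≫ a'⟩

end Groth.Agent.Vancyc.H155.PsiFD
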