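import Groth.Agent.Vancyc.H155.PsiRoof
import Groth.Agent.Sga4h.SLocTrans88
import Groth.Agent.Etbc.H199.GenPt

/-!
# The nearby cycles at `x₀` are those of the polynomial model (package PsiEt of S4015)
-/

set_option autoImplicit false

universe u

namespace Groth.Agent.Vancyc.H155.PsiModel

open CategoryTheory CategoryTheory.Limits AlgebraicGeometry Psi PsiRoof FD Groth.Agent.Etrest.StrictLoc

/-- A field-valued point with image a rational point factors through the rational point. -/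
theorem eq_comp_point {k κ : Type u} [Field k] [Field κ] {X : Scheme.{u}} (pX : X ⟶ Spec (CommRingCat.of k))
    (a : Spec (CommRingCat.of k) ⟶ X) (ha : a ≫ pX = 𝟙 _) (y : Spec (CommRingCat.of κ) ⟶ X)
    (h : y default = a default) : y = (y ≫ pX) ≫ a := by
  obtain ⟨⟨x₀, φ⟩, rfl⟩ := (Scheme.SpecToEquivOfField k X).symm.surjective a
  obtain ⟨⟨x₁, ψ⟩, rfl⟩ := (Scheme.SpecToEquivOfField κ X).symm.surjective y
  change (Spec.map ψ ≫ X.fromSpecResidueField x₁) default = (Spec.map φ ≫ X.fromSpecResidueField x₀) default at h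
  rw [Scheme.Hom.comp_apply, Scheme.Hom.comp_apply, Scheme.fromSpecResidueField_apply,
    Scheme.fromSpecResidueField_apply] at h
  subst h
  change Spec.map φ ≫ X.fromSpecResidueField _ ≫ pX = 𝟙 _ at ha
  change Spec.map ψ ≫ X.fromSpecResidueField _ = ((Spec.map ψ ≫ X.fromSpecResidueField _) ≫ pX) ≫
    Spec.map φ ≫ X.fromSpecResidueField _
  obtain ⟨γ, hγ⟩ : ∃ γ : CommRingCat.of k ⟶ X.residueField x₁, Spec.map γ = X.fromSpecResidueField x₁ ≫ pX :=
    ⟨Spec.preimage _, Spec.map_preimage _⟩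
  rw [← hγ, ← Spec.map_comp, ← Spec.map_id, Spec.map_inj] at ha
  have h2 : φ ≫ γ = 𝟙 _ := by
    ext z
    apply φ.hom.injective
    have := congr($(ha) (φ z))
    simpa using this
  rw [Category.assoc (Spec.map ψ) _ pX, ← hγ, Category.assoc]
  congr 1
  rw [← Category.assoc, ← Spec.map_comp, h2, Spec.map_id, Category.id_comp]

/-- A morphism from the spectrum of a local ring factors through every open subscheme containing the image of the
closed point. -/
theorem exists_lift_open {S S₀ : Scheme.{u}} (j : S₀ ⟶ S) [IsOpenImmersion j] (s : S) (hs : s ∈ Set.range j)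
    (R : Type u) [CommRing R] [Algebra ↑(S.presheaf.stalk s) R] :
    ∃ ρ : Spec (CommRingCat.of R) ⟶ S₀, ρ ≫ j = Spec.map (CommRingCat.ofHom (algebraMap ↑(S.presheaf.stalk s) R)) ≫
      S.fromSpecStalk s := by
  refine ⟨IsOpenImmersion.lift j _ ?_, IsOpenImmersion.lift_fac _ _ _⟩
  rintro _ ⟨y, rfl⟩
  have h1 : (Spec.map (CommRingCat.ofHom (algebraMap ↑(S.presheaf.stalk s) R)) ≫ S.fromSpecStalk s) y ⤳ s := by
    rw [Scheme.Hom.comp_apply]
    have : S.fromSpecStalk s (Spec.map (CommRingCat.ofHom (algebraMap ↑(S.presheaf.stalk s) R)) y) ∈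
        Set.range (S.fromSpecStalk s) := ⟨_, rfl⟩
    rw [Scheme.range_fromSpecStalk] at this
    exact this
  exact h1.mem_open j.isOpenEmbedding.isOpen_range hs

section Main

variable {k : Type u} [Field k] {S X S₀ W : Scheme.{u}} (pX : X ⟶ Spec (CommRingCat.of k)) {n : ℕ} (f : X ⟶ S)
  (j : S₀ ⟶ S) [IsOpenImmersion j] (τ : S₀ ⟶ Spec (CommRingCat.of (Polynomial k))) [Etale τ]
  (g : MvPolynomial (Fin n) k)
  (p : W ⟶ X) (q : W ⟶ Spec (CommRingCat.of (MvPolynomial (Fin n) k))) (r : W ⟶ S₀)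
  (e : Spec (CommRingCat.of k) ⟶ W) [Etale p] [Etale q] (hpf : p ≫ f = r ≫ j) (hqG : r ≫ τ = q ≫ polyMap g)
  (heq : e ≫ q = origin k n)
  (hpX : p ≫ pX = q ≫ Spec.map (CommRingCat.ofHom (algebraMap k (MvPolynomial (Fin n) k))))

include hpf hqG heq hpX in
/-- The stalk of nearby cycles at a geometric point over `x₀ = p(e)` is that of the polynomial model at a geometric
point over the origin. -/
theorem exists_point (R : Type u) [CommRing R] [IsLocalRing R] (ρ : Spec (CommRingCat.of R) ⟶ S₀)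
    (b : Spec (CommRingCat.of R) ⟶ S) (hb : ρ ≫ j = b) (Ω : Type u) [Field Ω] [Algebra R Ω]
    {κ : Type u} [Field κ] [IsSepClosed κ] (x : Spec (CommRingCat.of κ) ⟶ pullback f b)
    (hx : (x ≫ pullback.fst f b) default = (e ≫ p) default) :
    ∃ x₂ : Spec (CommRingCat.of κ) ⟶ pullback (polyMap g) (ρ ≫ τ),
      x₂ ≫ pullback.snd (polyMap g) (ρ ≫ τ) = x ≫ pullback.snd f b ∧
      x₂ ≫ pullback.fst (polyMap g) (ρ ≫ τ) = ((x ≫ pullback.fst f b) ≫ pX) ≫ origin k n ∧
      ∀ (M : Type) [AddCommGroup M] (i : ℕ),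
        Nonempty (St (VanCyc.jA R (pullback.snd f b) Ω) M i x ≅
          St (VanCyc.jA R (pullback.snd (polyMap g) (ρ ≫ τ)) Ω) M i x₂) := by
  have h1 : (e ≫ p) ≫ pX = 𝟙 _ := by
    rw [Category.assoc, hpX, ← Category.assoc, heq, ← Spec.map_comp, ← CommRingCat.ofHom_comp]
    have : (MvPolynomial.eval (0 : Fin n → k)).comp (algebraMap k (MvPolynomial (Fin n) k)) = RingHom.id k := by
      ext t
      simp
    rw [this]
    exact Spec.map_id _
  have h2 := eq_comp_point pX (e ≫ p) h1 (x ≫ pullback.fst f b) hx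
  obtain ⟨c, hc⟩ : ∃ c, c = (x ≫ pullback.fst f b) ≫ pX := ⟨_, rfl⟩
  rw [← hc] at h2 ⊢
  have h3 : (c ≫ e) ≫ r = (x ≫ pullback.snd f b) ≫ ρ := by
    rw [← cancel_mono j]
    calc ((c ≫ e) ≫ r) ≫ j = (c ≫ e ≫ p) ≫ f := by rw [Category.assoc, ← hpf]; simp only [Category.assoc]
      _ = (x ≫ pullback.fst f b) ≫ f := by rw [h2]
      _ = (x ≫ pullback.snd f b) ≫ b := by rw [Category.assoc, pullback.condition, Category.assoc]
      _ = ((x ≫ pullback.snd f b) ≫ ρ) ≫ j := by rw [Category.assoc _ ρ j, hb]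
  let w : Spec (CommRingCat.of κ) ⟶ pullback r ρ := pullback.lift (c ≫ e) (x ≫ pullback.snd f b) h3
  have hw1 : w ≫ uX f j p r hpf ρ b hb = x := by
    apply pullback.hom_ext
    · rw [Category.assoc, uX_fst, ← Category.assoc, pullback.lift_fst, h2, Category.assoc]
    · rw [Category.assoc, uX_snd, pullback.lift_snd]
  refine ⟨w ≫ uA τ (polyMap g) q r hqG ρ, ?_, ?_, fun M _ i => ?_⟩
  · rw [Category.assoc, uA_snd, pullback.lift_snd]
  · rw [Category.assoc, uA_fst, ← Category.assoc, pullback.lift_fst, Category.assoc, heq]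
  · have h4 := nonempty_St_roof f j τ (polyMap g) p q r hpf hqG ρ b hb (VanCyc.toS R Ω) M i w
    rw [hw1] at h4
    exact h4

end Main

end Groth.Agent.Vancyc.H155.PsiModel
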